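import Cfsg.Agent.H664.Eight.Base
import Cfsg.Agent.H363.PslCard
import Cfsg.Prelude.Def_Classification2
import Cfsg.Prelude.Def_Sporadic
import Cfsg.Prelude.Def_Exceptional

/-!
# S4899 : assembly (helper733 for TEAM EIGHT of helper664)

* `Concl G` : the conclusion of S4899;
* `Rows` : one field for each row (families of groups);
* `concl_of_known` : the rows give the conclusion for every known simple group.
-/

set_option autoImplicit false

open Cfsg Cfsg.Agent.H664.Eight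

namespace Cfsg.Agent.H733.Eight

universe u

/-- The conclusion of S4899. -/
def Concl (G : Type u) [Group G] : Prop :=
  8 ≤ (charDegrees G).ncard ∨ ((charDegrees G).ncard = 4 ∧ (∃ (F : Type) (_ : Field F) (_ : Fintype F), ringChar F = 2 ∧
    4 ≤ Fintype.card F ∧ Nonempty (G ≃* Matrix.ProjectiveSpecialLinearGroup (Fin 2) F))) ∨
  ((charDegrees G).ncard = 5 ∧ (∃ (F : Type) (_ : Field F) (_ : Fintype F), ringChar F ≠ 2 ∧
    5 < Fintype.card F ∧ Nonempty (G ≃* Matrix.ProjectiveSpecialLinearGroup (Fin 2) F))) ∨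
  ((charDegrees G).ncard = 6 ∧ (IsSuzuki G ∨ (∃ (F : Type) (_ : Field F) (_ : Fintype F), Fintype.card F = 4 ∧
    Nonempty (G ≃* Matrix.ProjectiveSpecialLinearGroup (Fin 3) F)))) ∨
  ((charDegrees G).ncard = 7 ∧ (Nonempty (G ≃* Matrix.ProjectiveSpecialLinearGroup (Fin 3) (ZMod 3)) ∨
    Nonempty (G ≃* ↥(alternatingGroup (Fin 7))) ∨ IsM11 G ∨ IsJ1 G))

/-- The small isomorphisms. -/
structure Isos : Prop where
  a5 : ∀ (F : Type) [Field F] [Fintype F], Fintype.card F = 4 →
    Nonempty (Matrix.ProjectiveSpecialLinearGroup (Fin 2) F ≃* alternatingGroup (Fin 5))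
  a5' : ∀ (F : Type) [Field F] [Fintype F], Fintype.card F = 5 →
    Nonempty (Matrix.ProjectiveSpecialLinearGroup (Fin 2) F ≃* alternatingGroup (Fin 5))
  a6 : ∀ (F : Type) [Field F] [Fintype F], Fintype.card F = 9 →
    Nonempty (Matrix.ProjectiveSpecialLinearGroup (Fin 2) F ≃* alternatingGroup (Fin 6))
  l32 : ∀ (F K : Type) [Field F] [Fintype F] [Field K] [Fintype K], Fintype.card F = 7 → Fintype.card K = 2 →
    Nonempty (Matrix.ProjectiveSpecialLinearGroup (Fin 2) F ≃* Matrix.ProjectiveSpecialLinearGroup (Fin 3) K)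
  sz : ∀ (S : Type u) [Group S] [Finite S] [IsSimpleGroup S], Lie.IsoSuzuki S → IsSuzuki S
  m11 : ∀ (S : Type u) [Group S] [Finite S] [IsSimpleGroup S], Spor.IsoM11 S → IsM11 S
  j1 : ∀ (S : Type u) [Group S] [Finite S] [IsSimpleGroup S], Spor.IsoJ1 S → IsJ1 S

/-- The rows of the groups with few degrees. -/
structure Exact : Prop where
  l2even : ∀ (F : Type) [Field F] [Fintype F], ringChar F = 2 → 4 ≤ Fintype.card F →
    (charDegrees (Matrix.ProjectiveSpecialLinearGroup (Fin 2) F)).ncard = 4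
  l2odd : ∀ (F : Type) [Field F] [Fintype F], ringChar F ≠ 2 → 5 < Fintype.card F →
    (charDegrees (Matrix.ProjectiveSpecialLinearGroup (Fin 2) F)).ncard = 5
  l33 : (charDegrees (Matrix.ProjectiveSpecialLinearGroup (Fin 3) (ZMod 3))).ncard = 7
  l34 : ∀ (F : Type) [Field F] [Fintype F], Fintype.card F = 4 →
    (charDegrees (Matrix.ProjectiveSpecialLinearGroup (Fin 3) F)).ncard = 6
  sz : ∀ (S : Type u) [Group S] [Finite S] [IsSimpleGroup S], Lie.IsoSuzuki S → (charDegrees S).ncard = 6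
  a7 : (charDegrees (alternatingGroup (Fin 7))).ncard = 7
  m11 : ∀ (S : Type u) [Group S] [Finite S] [IsSimpleGroup S], Spor.IsoM11 S → (charDegrees S).ncard = 7
  j1 : ∀ (S : Type u) [Group S] [Finite S] [IsSimpleGroup S], Spor.IsoJ1 S → (charDegrees S).ncard = 7

/-- The rows of the classical and alternating groups with at least eight degrees. -/
structure Classical : Prop where
  alt : ∀ n : ℕ, 8 ≤ n → Eight (alternatingGroup (Fin n))
  l3 : ∀ (F : Type) [Field F] [Fintype F], 5 ≤ Fintype.card F → Eight (Matrix.ProjectiveSpecialLinearGroup (Fin 3) F)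
  ln : ∀ (F : Type) [Field F] [Fintype F] (n : ℕ), 4 ≤ n → Eight (Matrix.ProjectiveSpecialLinearGroup (Fin n) F)
  u3 : ∀ (F : Type) [Field F] [Fintype F] (q : ℕ), Fintype.card F = q ^ 2 → 3 ≤ q → Eight (PSU 3 F q)
  u4 : ∀ (F : Type) [Field F] [Fintype F] (q : ℕ), Fintype.card F = q ^ 2 → 3 ≤ q → Eight (PSU 4 F q)
  un : ∀ (F : Type) [Field F] [Fintype F] (n q : ℕ), Fintype.card F = q ^ 2 → 5 ≤ n → ¬ (n = 5 ∧ q = 2) →
    ¬ (n = 6 ∧ q = 2) → ¬ (n = 7 ∧ q = 2) → Eight (PSU n F q)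
  u42 : ∀ (F : Type) [Field F] [Fintype F], Fintype.card F = 2 ^ 2 → Eight (PSU 4 F 2)
  u52 : ∀ (F : Type) [Field F] [Fintype F], Fintype.card F = 2 ^ 2 → Eight (PSU 5 F 2)
  u62 : ∀ (F : Type) [Field F] [Fintype F], Fintype.card F = 2 ^ 2 → Eight (PSU 6 F 2)
  u72 : ∀ (F : Type) [Field F] [Fintype F], Fintype.card F = 2 ^ 2 → Eight (PSU 7 F 2)
  sp43 : ∀ (F : Type) [Field F] [Fintype F], Fintype.card F = 3 → Eight (PSp 2 F)
  sp4 : ∀ (F : Type) [Field F] [Fintype F], 4 ≤ Fintype.card F → Eight (PSp 2 F)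
  sp : ∀ (F : Type) [Field F] [Fintype F] (m : ℕ), 3 ≤ m → Eight (PSp m F)
  oo : ∀ (F : Type) [Field F] [Fintype F] (m : ℕ), 3 ≤ m → Odd (Fintype.card F) → Eight (POmega F (quadFormOdd m F))
  op : ∀ (F : Type) [Field F] [Fintype F] (m : ℕ), 4 ≤ m → Eight (POmega F (quadFormPlus m F))
  om : ∀ (F : Type) [Field F] [Fintype F] (m : ℕ) (a b : F), 4 ≤ m →
    (∀ z₁ z₂ : F, z₁ ^ 2 + a * z₁ * z₂ + b * z₂ ^ 2 = 0 → z₁ = 0 ∧ z₂ = 0) →
    Eight (POmega F (quadFormMinus (m - 1) F a b))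

/-- A row for a predicate of groups. -/
def Row (P : ∀ (S : Type u) [Group S], Prop) : Prop :=
  ∀ (S : Type u) [Group S] [Finite S] [IsSimpleGroup S], P S → Eight S

/-- The rows of the exceptional groups of Lie type. -/
structure Exceptional : Prop where
  g2 : Row.{u} (fun S _ => Lie.IsoChevG2 S)
  f4 : Row.{u} (fun S _ => Lie.IsoF4 S)
  e6 : Row.{u} (fun S _ => Lie.IsoChevE6 S)
  e7 : Row.{u} (fun S _ => Lie.IsoE7 S)
  e8 : Row.{u} (fun S _ => Lie.IsoE8 S)
  twE6 : Row.{u} (fun S _ => Lie.Iso2E6 S)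
  d4 : Row.{u} (fun S _ => Lie.Iso3D4 S)
  ree : Row.{u} (fun S _ => Lie.IsoRee S)
  twF4 : Row.{u} (fun S _ => Lie.Iso2F4 S)
  tits : Row.{u} (fun S _ => Lie.IsoTits S)

/-- The rows of the sporadic groups other than `M11` and `J1`. -/
structure Sporadic : Prop where
  m12 : Row.{u} (fun S _ => Spor.IsoM12 S)
  m22 : Row.{u} (fun S _ => Spor.IsoM22 S)
  m23 : Row.{u} (fun S _ => Spor.IsoM23 S)
  m24 : Row.{u} (fun S _ => Spor.IsoM24 S)
  j2 : Row.{u} (fun S _ => Spor.IsoJ2 S)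
  j3 : Row.{u} (fun S _ => Spor.IsoJ3 S)
  j4 : Row.{u} (fun S _ => Spor.IsoJ4 S)
  co1 : Row.{u} (fun S _ => Spor.IsoCo1 S)
  co2 : Row.{u} (fun S _ => Spor.IsoCo2 S)
  co3 : Row.{u} (fun S _ => Spor.IsoCo3 S)
  mcl : Row.{u} (fun S _ => Spor.IsoMcL S)
  hs : Row.{u} (fun S _ => Spor.IsoHS S)
  suz : Row.{u} (fun S _ => Spor.IsoSuz S)
  he : Row.{u} (fun S _ => Spor.IsoHe S)
  ru : Row.{u} (fun S _ => Spor.IsoRu S)
  on : Row.{u} (fun S _ => Spor.IsoON S)
  ly : Row.{u} (fun S _ => Spor.IsoLy S)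
  fi22 : Row.{u} (fun S _ => Spor.IsoFi22 S)
  fi23 : Row.{u} (fun S _ => Spor.IsoFi23 S)
  fi24 : Row.{u} (fun S _ => Spor.IsoFi24' S)
  hn : Row.{u} (fun S _ => Spor.IsoHN S)
  th : Row.{u} (fun S _ => Spor.IsoTh S)
  b : Row.{u} (fun S _ => Spor.IsoB S)
  m : Row.{u} (fun S _ => Spor.IsoM S)

/-- All rows. -/
structure Rows : Prop where
  isos : Isos.{u}
  exact_ : Exact.{u}
  classical : Classical
  exceptional : Exceptional.{u}
  sporadic : Sporadic.{u}

section

variable {G : Type u} [Group G]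

theorem concl_l2 (I : Isos.{u}) (E : Exact.{u}) {F : Type} [Field F] [Fintype F] (h4 : 4 ≤ Fintype.card F)
    (e : G ≃* Matrix.ProjectiveSpecialLinearGroup (Fin 2) F) : Concl G := by
  by_cases h2 : ringChar F = 2
  · refine Or.inr (Or.inl ⟨?_, F, inferInstance, inferInstance, h2, h4, ⟨e⟩⟩)
    rw [charDegrees_congr e]
    exact E.l2even F h2 h4
  · by_cases h5 : 5 < Fintype.card F
    · refine Or.inr (Or.inr (Or.inl ⟨?_, F, inferInstance, inferInstance, h2, h5, ⟨e⟩⟩))
      rw [charDegrees_congr e]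
      exact E.l2odd F h2 h5
    · have h5' : Fintype.card F = 5 := by
        rcases Nat.lt_or_ge (Fintype.card F) 5 with h | h
        · have h6 : Fintype.card F = 4 := by omega
          exact absurd (FiniteField.even_card_iff_char_two.2 (by rw [h6])) h2
        · omega
      let _ : Fintype (GaloisField 2 2) := Fintype.ofFinite _
      have h4' : Fintype.card (GaloisField 2 2) = 4 := by
        rw [← Nat.card_eq_fintype_card, GaloisField.card 2 2 (by norm_num)]
        norm_num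
      have h2' : ringChar (GaloisField 2 2) = 2 := ringChar.eq (GaloisField 2 2) 2
      obtain ⟨e1⟩ := I.a5' F h5'
      obtain ⟨e2⟩ := I.a5 (GaloisField 2 2) h4'
      have e3 := (e.trans e1).trans e2.symm
      refine Or.inr (Or.inl ⟨?_, GaloisField 2 2, inferInstance, inferInstance, h2', h4'.ge, ⟨e3⟩⟩)
      rw [charDegrees_congr e3]
      exact E.l2even _ h2' h4'.ge

theorem concl_psl (I : Isos.{u}) (E : Exact.{u}) (C : Classical) (h : IsPSL G) : Concl G := by
  obtain ⟨F, _, _, n, hn, h4, ⟨e⟩⟩ := h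
  rcases Nat.lt_or_ge n 4 with hn4 | hn4
  · have hn23 : n = 2 ∨ n = 3 := by omega
    rcases hn23 with rfl | rfl
    · exact concl_l2 I E (h4 rfl) e
    · have hq := Fintype.one_lt_card (α := F)
      rcases Nat.lt_or_ge (Fintype.card F) 5 with h5 | h5
      · have h234 : Fintype.card F = 2 ∨ Fintype.card F = 3 ∨ Fintype.card F = 4 := by omega
        rcases h234 with h2 | h3 | h4
        · have h7 : Fact (Nat.Prime 7) := ⟨by norm_num⟩
          obtain ⟨e'⟩ := I.l32 (ZMod 7) F (ZMod.card 7) h2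
          exact concl_l2 I E (F := ZMod 7) (by rw [ZMod.card]; norm_num) (e.trans e'.symm)
        · have h3' : Fact (Nat.Prime 3) := ⟨by norm_num⟩
          obtain ⟨e1⟩ := H363.PslCard.psl_of_card (n := Fin 3) (F := F) (F' := ZMod 3) (h3.trans (ZMod.card 3).symm)
          have e2 := e.trans e1
          refine Or.inr (Or.inr (Or.inr (Or.inr ⟨?_, Or.inl ⟨e2⟩⟩)))
          rw [charDegrees_congr e2]
          exact E.l33
        · refine Or.inr (Or.inr (Or.inr (Or.inl ⟨?_, Or.inr ⟨F, inferInstance, inferInstance, h4, ⟨e⟩⟩⟩)))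
          rw [charDegrees_congr e]
          exact E.l34 F h4
      · exact Or.inl (Eight.of_equiv e (C.l3 F h5))
  · exact Or.inl (Eight.of_equiv e (C.ln F n hn4))

theorem concl_alt (I : Isos.{u}) (E : Exact.{u}) (C : Classical) (h : IsAlternating G) : Concl G := by
  obtain ⟨n, hn, ⟨e⟩⟩ := h
  rcases Nat.lt_or_ge n 8 with h8 | h8
  · have h567 : n = 5 ∨ n = 6 ∨ n = 7 := by omega
    rcases h567 with rfl | rfl | rfl
    · let _ : Fintype (GaloisField 2 2) := Fintype.ofFinite _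
      have h4' : Fintype.card (GaloisField 2 2) = 4 := by
        rw [← Nat.card_eq_fintype_card, GaloisField.card 2 2 (by norm_num)]
        norm_num
      obtain ⟨e2⟩ := I.a5 (GaloisField 2 2) h4'
      exact concl_l2 I E h4'.ge (e.trans e2.symm)
    · let _ : Fintype (GaloisField 3 2) := Fintype.ofFinite _
      have h9 : Fintype.card (GaloisField 3 2) = 9 := by
        rw [← Nat.card_eq_fintype_card, GaloisField.card 3 2 (by norm_num)]
        norm_num
      obtain ⟨e2⟩ := I.a6 (GaloisField 3 2) h9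
      exact concl_l2 I E (by rw [h9]; norm_num) (e.trans e2.symm)
    · refine Or.inr (Or.inr (Or.inr (Or.inr ⟨?_, Or.inr (Or.inl ⟨e⟩)⟩)))
      rw [charDegrees_congr e]
      exact E.a7
  · exact Or.inl (Eight.of_equiv e (C.alt n h8))

theorem concl_psp (C : Classical) (h : IsPSp G) : Concl G := by
  obtain ⟨F, _, _, m, hm, h3, ⟨e⟩⟩ := h
  left
  rcases Nat.lt_or_ge m 3 with hm3 | hm3
  · obtain rfl : m = 2 := by omega
    rcases Nat.lt_or_ge (Fintype.card F) 4 with h4 | h4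
    · exact Eight.of_equiv e (C.sp43 F (by have := h3 rfl; omega))
    · exact Eight.of_equiv e (C.sp4 F h4)
  · exact Eight.of_equiv e (C.sp F m hm3)

theorem concl_psu (C : Classical) (h : IsPSU G) : Concl G := by
  obtain ⟨F, _, _, n, q, hF, hn, h32, ⟨e⟩⟩ := h
  left
  refine Eight.of_equiv e ?_
  have hq2 : 2 ≤ q := by
    by_contra hcon
    have h1 : 1 < Fintype.card F := Fintype.one_lt_card
    rw [hF] at h1
    have : q = 0 ∨ q = 1 := by omega
    rcases this with rfl | rfl <;> simp at h1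
  rcases Nat.lt_or_ge n 4 with h4 | h4
  · obtain rfl : n = 3 := by omega
    exact C.u3 F q hF (by by_contra hc; exact h32 ⟨rfl, by omega⟩)
  rcases Nat.lt_or_ge n 5 with h5 | h5
  · obtain rfl : n = 4 := by omega
    rcases Nat.lt_or_ge q 3 with hq | hq
    · obtain rfl : q = 2 := by omega
      exact C.u42 F hF
    · exact C.u4 F q hF hq
  by_cases h52 : n = 5 ∧ q = 2
  · obtain ⟨rfl, rfl⟩ := h52
    exact C.u52 F hF
  by_cases h62 : n = 6 ∧ q = 2
  · obtain ⟨rfl, rfl⟩ := h62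
    exact C.u62 F hF
  by_cases h72 : n = 7 ∧ q = 2
  · obtain ⟨rfl, rfl⟩ := h72
    exact C.u72 F hF
  exact C.un F n q hF h5 h52 h62 h72

theorem concl_exc [Finite G] [IsSimpleGroup G] (I : Isos.{u}) (E : Exact.{u}) (X : Exceptional.{u})
    (h : IsExceptionalLieType G) : Concl G := by
  rcases h with h | h | h | h | h | h | h | h | h | h | h
  · exact Or.inl (X.g2 G h)
  · exact Or.inl (X.f4 G h)
  · exact Or.inl (X.e6 G h)
  · exact Or.inl (X.e7 G h)
  · exact Or.inl (X.e8 G h)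
  · exact Or.inl (X.twE6 G h)
  · exact Or.inl (X.d4 G h)
  · exact Or.inr (Or.inr (Or.inr (Or.inl ⟨E.sz G h, Or.inl (I.sz G h)⟩)))
  · exact Or.inl (X.ree G h)
  · exact Or.inl (X.twF4 G h)
  · exact Or.inl (X.tits G h)

theorem concl_spor [Finite G] [IsSimpleGroup G] (I : Isos.{u}) (E : Exact.{u}) (X : Sporadic.{u})
    (h : IsSporadicGroup G) : Concl G := by
  rcases h with h | h | h | h | h | h | h | h | h | h | h | h | h | h | h | h | h | h | h | h | h | h | h | h | h | h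
  · exact Or.inr (Or.inr (Or.inr (Or.inr ⟨E.m11 G h, Or.inr (Or.inr (Or.inl (I.m11 G h)))⟩)))
  · exact Or.inl (X.m12 G h)
  · exact Or.inl (X.m22 G h)
  · exact Or.inl (X.m23 G h)
  · exact Or.inl (X.m24 G h)
  · exact Or.inr (Or.inr (Or.inr (Or.inr ⟨E.j1 G h, Or.inr (Or.inr (Or.inr (I.j1 G h)))⟩)))
  · exact Or.inl (X.j2 G h)
  · exact Or.inl (X.j3 G h)
  · exact Or.inl (X.j4 G h)
  · exact Or.inl (X.co1 G h)
  · exact Or.inl (X.co2 G h)
  · exact Or.inl (X.co3 G h)
  · exact Or.inl (X.mcl G h)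
  · exact Or.inl (X.hs G h)
  · exact Or.inl (X.suz G h)
  · exact Or.inl (X.he G h)
  · exact Or.inl (X.ru G h)
  · exact Or.inl (X.on G h)
  · exact Or.inl (X.ly G h)
  · exact Or.inl (X.fi22 G h)
  · exact Or.inl (X.fi23 G h)
  · exact Or.inl (X.fi24 G h)
  · exact Or.inl (X.hn G h)
  · exact Or.inl (X.th G h)
  · exact Or.inl (X.b G h)
  · exact Or.inl (X.m G h)

theorem not_prime_cyclic (hna : ¬ IsMulCommutative G) : ¬ IsPrimeCyclic G := by
  intro h
  apply hna
  have : Fact (Nat.card G).Prime := ⟨h⟩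
  have h1 : IsCyclic G := isCyclic_of_prime_card rfl
  exact ⟨⟨fun a b => (IsCyclic.commGroup (α := G)).mul_comm a b⟩⟩

/-- **S4899 for the known groups, from the rows.** -/
theorem concl_of_known [Finite G] [IsSimpleGroup G] (R : Rows.{u}) (hna : ¬ IsMulCommutative G)
    (hK : IsKnownSimple' G) : Concl G := by
  rcases hK with h | h | h | h | h | h | h | h | h | h
  · exact absurd h (not_prime_cyclic hna)
  · exact concl_alt R.isos R.exact_ R.classical h
  · exact concl_psl R.isos R.exact_ R.classical h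
  · exact concl_psp R.classical h
  · exact concl_psu R.classical h
  · obtain ⟨F, _, _, m, hm, ho, ⟨e⟩⟩ := h
    exact Or.inl (Eight.of_equiv e (R.classical.oo F m hm ho))
  · obtain ⟨F, _, _, m, hm, ⟨e⟩⟩ := h
    exact Or.inl (Eight.of_equiv e (R.classical.op F m hm))
  · obtain ⟨F, _, _, m, a, b, hm, ha, ⟨e⟩⟩ := h
    exact Or.inl (Eight.of_equiv e (R.classical.om F m a b hm ha))
  · exact concl_exc R.isos R.exact_ R.exceptional h
  · exact concl_spor R.isos R.exact_ R.sporadic h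

end

end Cfsg.Agent.H733.Eight
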